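import Cfsg.Agent.BlockLib.KG.ExtFirstMain
import Cfsg.Agent.BlockLib.KG.Knorr
import Cfsg.Agent.H6.FirstMain

/-!
# Maximal Brauer pairs via the defect group `Z(P)` of the block of `C_G(P)`
-/

set_option autoImplicit false

namespace Cfsg.Agent.BlockLib

namespace GrpAux

variable {G : Type*} [Group G] [Finite G]

local notation "N(" P ")" => Subgroup.normalizer (SetLike.coe P)

theorem not_dvd_relIndex_iff_forall {p : ℕ} [hp : Fact p.Prime] {H T : Subgroup G} (hHT : H ≤ T)
    (hTN : T ≤ N(H)) :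
    ¬ p ∣ H.relIndex T ↔ ∀ g ∈ T, (∃ k : ℕ, orderOf g = p ^ k) → g ∈ H := by
  constructor
  · rintro h g hg ⟨k, hk⟩
    have hS : IsPGroup p (Subgroup.zpowers g) := IsPGroup.of_card (n := k) (by
      rw [Nat.card_zpowers, hk])
    exact le_of_isPGroup_of_not_dvd hHT hTN hS (by rwa [Subgroup.zpowers_le]) h
      (Subgroup.mem_zpowers g)
  · intro h
    obtain ⟨S⟩ : Nonempty (Sylow p T) := inferInstance
    have h1 : (S : Subgroup T) ≤ H.subgroupOf T := by
      intro s hs
      apply h s s.2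
      obtain ⟨k, hk⟩ := IsPGroup.iff_orderOf.mp S.isPGroup' ⟨s, hs⟩
      refine ⟨k, ?_⟩
      rw [← hk, Subgroup.orderOf_mk, Subgroup.orderOf_coe]
    intro hdvd
    exact S.not_dvd_index (hdvd.trans (Subgroup.index_dvd_of_le h1))

end GrpAux

namespace CA

universe u v

local notation "C(" P ")" => Subgroup.centralizer (SetLike.coe P)
local notation "N(" P ")" => Subgroup.normalizer (SetLike.coe P)

variable {k : Type v} [Field k] {G : Type u} [Group G] [Fintype G] [Split k G]
variable {p : ℕ} [Fact p.Prime] [CharP k p]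

/-- `P` is a defect group of `e` in `P C(P)` iff `Z(P)` is a defect group of `e` in `C(P)`. -/
theorem isDefGrp_sup_iff {P : Subgroup G} (hP : IsPGroup p P) {e : CA k G} (he : IsBlk C(P) e) :
    IsDefGrp p (P ⊔ C(P)) e P ↔ IsDefGrp p C(P) e (P ⊓ C(P)) := by
  have heT : IsBlk (P ⊔ C(P)) e := (isBlk_sup_iff hP).mpr he
  have hTN : P ⊔ C(P) ≤ N(C(P)) :=
    (sup_centralizer_le_normalizer P).trans (normalizer_le_normalizer_centralizer P)
  constructor
  · intro h
    exact isDefGrp_inf_of_mul_eq le_sup_right hTN he heT he.idem h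
  · intro h
    obtain ⟨D, hD⟩ := exists_isDefGrp (p := p) heT
    have hPD : P ≤ D := by
      have hbr : br P e ≠ 0 := by
        rw [br_eq_self he.mem.1]
        exact he.ne_zero
      obtain ⟨x, hx, hle⟩ := (hD.br_ne_zero_iff heT hP le_sup_left).mp hbr
      have h1 := le_cjs_iff.mp hle
      rwa [cjs_eq_of_mem_normalizer
        (Subgroup.inv_mem _ (sup_centralizer_le_normalizer P hx))] at h1
    have h2 := isDefGrp_inf_of_mul_eq le_sup_right hTN he heT he.idem hD
    obtain ⟨x, hx, h3⟩ := h.conj he h2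
    have h4 : cjs x (P ⊓ C(P)) = P ⊓ C(P) := by
      rw [cjs_inf, cjs_eq_of_mem_normalizer (centralizer_le_normalizer' P hx),
        cjs_eq_of_mem_normalizer (Subgroup.le_normalizer hx)]
    rw [h4] at h3
    have hDP : D ≤ P := by
      intro d hd
      obtain ⟨a, ha, c, hc, rfl⟩ := (GrpAux.mem_sup_iff_of_le_normalizer
        (le_sup_left.trans hTN)).mp (hD.le hd)
      have hcD : c ∈ D ⊓ C(P) := by
        refine ⟨?_, hc⟩
        have := D.mul_mem (D.inv_mem (hPD ha)) hd
        rwa [inv_mul_cancel_left] at this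
      rw [h3] at hcD
      exact P.mul_mem ha hcD.1
    rwa [le_antisymm hDP hPD] at hD

theorem exists_isMaxBP_iff {P : Subgroup G} {e : CA k G} (h : IsBP p P e) :
    (∃ b, IsMaxBP p b P e) ↔
      IsDefGrp p C(P) e (P ⊓ C(P)) ∧ ¬ p ∣ (P ⊔ C(P)).relIndex (stab P e) := by
  constructor
  · rintro ⟨b, hb⟩
    exact ⟨(isDefGrp_sup_iff h.1 h.2).mp hb.isDefGrp_sup, hb.not_dvd_relIndex⟩
  · rintro ⟨h1, h2⟩
    obtain ⟨b, hb, hbe⟩ := H6.FirstMain.exists_blk_br_mul h.1 le_rfl
      (centralizer_le_normalizer' P) h.2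
    exact ⟨b, (isMaxBP_iff_not_dvd ⟨h, hb, hbe⟩ ((isDefGrp_sup_iff h.1 h.2).mpr h1)).mpr h2⟩

end CA

end Cfsg.Agent.BlockLib
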