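import Cfsg.Agent.BlockLib.KG.Inertial

/-!
# The extended first main theorem (blocks of `P C_G(P)`)
-/

set_option autoImplicit false

namespace Cfsg.Agent.BlockLib

namespace GrpAux

variable {G : Type*} [Group G]

local notation "N(" P ")" => Subgroup.normalizer (SetLike.coe P)

theorem le_of_isPGroup_of_not_dvd {p : ℕ} [hp : Fact p.Prime] {H T S : Subgroup G} (hHT : H ≤ T)
    (hTN : T ≤ N(H)) (hS : IsPGroup p S) (hST : S ≤ T) (h : ¬ p ∣ H.relIndex T) : S ≤ H := by
  haveI : (H.subgroupOf T).Normal := (Subgroup.normal_subgroupOf_iff_le_normalizer hHT).mpr hTN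
  intro s hs
  obtain ⟨a, ha⟩ := hS ⟨s, hs⟩
  have ha' : s ^ (p ^ a) = 1 := congrArg Subtype.val ha
  have h1 : s ^ (H.relIndex T) ∈ H := by
    have := Subgroup.pow_index_mem (H.subgroupOf T) ⟨s, hST hs⟩
    exact this
  refine mem_of_pow_mem_of_coprime ?_ (by rw [ha']; exact H.one_mem) h1
  exact Nat.Coprime.pow_left _ ((Nat.Prime.coprime_iff_not_dvd hp.out).mpr h)

end GrpAux

namespace CA

universe u v

local notation "C(" P ")" => Subgroup.centralizer (SetLike.coe P)
local notation "N(" P ")" => Subgroup.normalizer (SetLike.coe P)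

variable {k : Type v} [Field k] {G : Type u} [Group G] [Fintype G] [Split k G]
variable {p : ℕ} [Fact p.Prime] [CharP k p]

omit [Fintype G] in
theorem sup_centralizer_le_normalizer (P : Subgroup G) : P ⊔ C(P) ≤ N(P) :=
  sup_le Subgroup.le_normalizer (centralizer_le_normalizer' P)

omit [Fintype G] in
theorem normalizer_le_normalizer_sup (P : Subgroup G) : N(P) ≤ N(P ⊔ C(P)) := by
  intro x hx
  apply mem_normalizer_of_cjs_eq
  rw [cjs_sup, cjs_eq_of_mem_normalizer hx,
    cjs_eq_of_mem_normalizer (normalizer_le_normalizer_centralizer P hx)]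

/-- The blocks of `P C_G(P)` are the blocks of `C_G(P)`. -/
theorem isBlk_sup_iff {P : Subgroup G} (hP : IsPGroup p P) {ε : CA k G} :
    IsBlk (P ⊔ C(P)) ε ↔ IsBlk C(P) ε := by
  have key : ∀ e : CA k G, IsBlk C(P) e → IsBlk (P ⊔ C(P)) e := fun e he =>
    IsBP.isBlk_of_le' ⟨hP, he⟩ le_sup_left le_sup_right
      (sup_le (le_stab_self he.mem.1) (centralizer_le_stab he.mem))
  refine ⟨fun h => ?_, key ε⟩
  have hmem := idem_mem_cen_centralizer hP le_sup_left (sup_centralizer_le_normalizer P)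
    le_sup_right h.mem h.idem
  obtain ⟨e, he, heε⟩ := exists_blk_of_idem hmem h.idem h.ne_zero
  have : e = ε := (key e he).eq_of_mul_ne_zero h (by rw [heε]; exact he.ne_zero)
  rwa [← this]

theorem isMaxBP_of_isDefGrp {b e : CA k G} {P : Subgroup G} (h : IsBPOf p b P e)
    (hD : IsDefGrp p ⊤ b P) : IsMaxBP p b P e := by
  refine ⟨h, fun R g hR hle => ?_⟩
  obtain ⟨x, -, hx⟩ := (hD.br_ne_zero_iff h.2.1 hR.1.1 le_top).mp hR.br_ne_zero
  symm
  apply Subgroup.eq_of_le_of_card_ge hle.le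
  have := Subgroup.card_le_of_le hx
  rwa [card_cjs] at this

theorem exists_isBPOf {b : CA k G} {P : Subgroup G} (hb : IsBlk ⊤ b) (hP : IsPGroup p P)
    (hbr : br P b ≠ 0) : ∃ e, IsBPOf p b P e := by
  have hmem : br P b ∈ cen C(P) := br_mem_cen (fix_anti le_top hb.mem.2)
  obtain ⟨e, he, heb⟩ := exists_blk_of_idem hmem
    (br_idem hP (fix_anti le_top hb.mem.2) hb.idem) hbr
  exact ⟨e, ⟨hP, he⟩, hb, by rw [cen_comm hmem he.mem, heb]⟩

theorem IsMaxBP.conj {b e e' : CA k G} {P : Subgroup G} (h : IsMaxBP p b P e)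
    (h' : IsBPOf p b P e') : ∃ x ∈ N(P), cj x e' = e := by
  obtain ⟨x, hx⟩ := h.exists_conj_subLE h'
  have h1 : cjs x P = P := Subgroup.eq_of_le_of_card_ge hx.le (by rw [card_cjs])
  refine ⟨x, mem_normalizer_of_cjs_eq h1, ?_⟩
  rw [h1] at hx
  exact SubLE.unique h.1.1 hx Relation.ReflTransGen.refl

theorem IsMaxBP.isDefGrp_sup {b e : CA k G} {P : Subgroup G} (h : IsMaxBP p b P e) :
    IsDefGrp p (P ⊔ C(P)) e P :=
  ((⟨h.1.1, le_sup_left, le_sup_right, sup_le (le_stab_self h.1.1.2.mem.1)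
    (centralizer_le_stab h.1.1.2.mem)⟩ : RelData p P e (P ⊔ C(P))).main le_sup_left
    Relation.ReflTransGen.refl (h.isRelMax _)).1

theorem isMaxBP_iff_not_dvd {b e : CA k G} {P : Subgroup G} (h : IsBPOf p b P e)
    (hD : IsDefGrp p (P ⊔ C(P)) e P) :
    IsMaxBP p b P e ↔ ¬ p ∣ (P ⊔ C(P)).relIndex (stab P e) := by
  constructor
  · intro hmax
    exact hmax.not_dvd_relIndex
  · intro hnd
    refine ⟨h, fun R g hR hle => ?_⟩
    by_contra hne
    have hlt : P < R := lt_of_le_of_ne hle.le (fun h' => hne h'.symm)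
    have hlt' : P < R ⊓ N(P) := lt_inf_normalizer hR.1.1 hlt
    obtain ⟨g', hg', -⟩ := hle.exists_nsub_mid hR.1 hlt'.le inf_le_left inf_le_right
    have hHT : P ⊔ C(P) ≤ stab P e :=
      sup_le (le_stab_self h.1.2.mem.1) (centralizer_le_stab h.1.2.mem)
    have hTN : stab P e ≤ N(P ⊔ C(P)) := by
      intro x hx
      apply mem_normalizer_of_cjs_eq
      rw [cjs_sup, cjs_eq_of_mem_normalizer hx.1,
        cjs_eq_of_mem_normalizer (normalizer_le_normalizer_centralizer P hx.1)]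
    have hSH := GrpAux.le_of_isPGroup_of_not_dvd hHT hTN hg'.2.1.1 hg'.le_stab hnd
    obtain ⟨x, -, hx⟩ := (hD.br_ne_zero_iff ((isBlk_sup_iff h.1.1).mpr h.1.2) hg'.2.1.1 hSH).mp
      hg'.br_ne_zero
    have h1 := Subgroup.card_le_of_le hx
    rw [card_cjs] at h1
    exact absurd (card_lt_of_lt hlt') (not_lt.mpr h1)

end CA

end Cfsg.Agent.BlockLib
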