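import Cfsg.Agent.CharLib.Orth
import Cfsg.Agent.CharLib.Degree
import Cfsg.Prelude.Def_Blocks

/-!
# A real element with centralizer of odd order forces a character of even degree
-/

set_option autoImplicit false

namespace Cfsg.Agent.BlockLib

namespace RealOdd

open Cfsg Cfsg.Agent.CharLib
open scoped ComplexConjugate

universe u

theorem sq_sum_eq {ι : Type*} (s : Finset ι) (f : ι → ℂ) (hf : ∀ i ∈ s, IsIntegral ℤ (f i)) :
    ∃ r : ℂ, IsIntegral ℤ r ∧ (∑ i ∈ s, f i) ^ 2 = ∑ i ∈ s, f i ^ 2 + 2 * r := by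
  classical
  induction s using Finset.induction_on with
  | empty => exact ⟨0, isIntegral_zero, by simp⟩
  | insert a s ha ih =>
    obtain ⟨r, hr, h⟩ := ih (fun i hi => hf i (Finset.mem_insert_of_mem hi))
    refine ⟨f a * ∑ i ∈ s, f i + r, ?_, ?_⟩
    · refine IsIntegral.add (IsIntegral.mul (hf a (Finset.mem_insert_self a s)) ?_) hr
      exact IsIntegral.sum _ (fun i hi => hf i (Finset.mem_insert_of_mem hi))
    · rw [Finset.sum_insert ha, Finset.sum_insert ha, add_sq, h]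
      ring

variable {G : Type u} [Group G] [Finite G]

theorem exists_even_degree {x : G} (hx1 : x ≠ 1) (hreal : IsConj x x⁻¹)
    (hodd : Odd (Nat.card (Subgroup.centralizer ({x} : Set G)))) :
    ∃ χ : IrrCharacter G, Even (charDegree (χ : G → ℂ)) := by
  classical
  cases nonempty_fintype G
  by_contra hno
  push Not at hno
  have hdeg : ∀ χ : IrrCharacter G, ∃ m : ℕ, (χ : G → ℂ) 1 = 2 * (m : ℂ) + 1 := by
    intro χ
    obtain ⟨n, -, hn⟩ := irr_apply_one_nat χ
    have h1 : charDegree (χ : G → ℂ) = n := by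
      simp [charDegree, hn]
    have h2 := hno χ
    rw [h1, Nat.not_even_iff_odd] at h2
    obtain ⟨m, hm⟩ := h2
    exact ⟨m, by rw [hn, hm]; push_cast; ring⟩
  choose m hm using hdeg
  have hint : ∀ χ : IrrCharacter G, IsIntegral ℤ ((χ : G → ℂ) x) := fun χ =>
    isCharacter_isIntegral (isCharacter_of_irr χ.2) x
  have h1 := sum_irr_one_mul x
  rw [if_neg hx1] at h1
  have h2 := sum_irr_mul_conj_self x
  have h3 : ∀ χ : IrrCharacter G, conj ((χ : G → ℂ) x) = (χ : G → ℂ) x := by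
    intro χ
    rw [← isCharacter_inv (isCharacter_of_irr χ.2) x]
    exact (isClassFunction_apply_of_isConj (isClassFunction_of_irr χ.2) hreal).symm
  have h4 : ∑ χ : IrrCharacter G, (χ : G → ℂ) x ^ 2 =
      (Nat.card (Subgroup.centralizer ({x} : Set G)) : ℂ) := by
    rw [← h2]
    refine Finset.sum_congr rfl fun χ _ => ?_
    rw [h3, sq]
  obtain ⟨r, hr, h5⟩ := sq_sum_eq Finset.univ (fun χ : IrrCharacter G => (χ : G → ℂ) x)
    (fun χ _ => hint χ)
  have h6 : ∑ χ : IrrCharacter G, (χ : G → ℂ) x =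
      - 2 * ∑ χ : IrrCharacter G, (m χ : ℂ) * (χ : G → ℂ) x := by
    have : ∑ χ : IrrCharacter G, (χ : G → ℂ) 1 * (χ : G → ℂ) x =
        2 * ∑ χ : IrrCharacter G, (m χ : ℂ) * (χ : G → ℂ) x + ∑ χ : IrrCharacter G, (χ : G → ℂ) x := by
      rw [Finset.mul_sum, ← Finset.sum_add_distrib]
      refine Finset.sum_congr rfl fun χ _ => ?_
      rw [hm χ]; ring
    rw [h1] at this
    linear_combination -this
  set T : ℂ := ∑ χ : IrrCharacter G, (m χ : ℂ) * (χ : G → ℂ) x with hT
  have hTint : IsIntegral ℤ T :=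
    IsIntegral.sum _ (fun χ _ => IsIntegral.mul (isIntegral_natCast _) (hint χ))
  obtain ⟨c, hc⟩ := hodd
  rw [h4, h6, hc] at h5
  have h7 : ((1 : ℕ) : ℂ) / ((2 : ℕ) : ℂ) = 2 * T ^ 2 - c - r := by
    push_cast at h5 ⊢
    linear_combination (-1 / 2 : ℂ) * h5
  have h8 : IsIntegral ℤ (((1 : ℕ) : ℂ) / ((2 : ℕ) : ℂ)) := by
    rw [h7]
    refine IsIntegral.sub (IsIntegral.sub (IsIntegral.mul ?_ (hTint.pow 2)) (isIntegral_natCast _)) hr
    exact_mod_cast (isIntegral_natCast (R := ℤ) (B := ℂ) 2)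
  have := dvd_of_isIntegral_div (by norm_num) h8
  omega

end RealOdd

end Cfsg.Agent.BlockLib
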